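import Cfsg.Agent.Lib.SU3Local.Section
import Cfsg.Agent.Lib.Classical.HermBridge

/-!
# `p`-local structure of three-dimensional unitary groups

For a non-degenerate Hermitian form on a three-dimensional space over a finite field of characteristic `p`,
the `p`-elements of the normalizer of any nontrivial `p`-subgroup of the isometry group lie in a common
`p`-subgroup, the unipotent radical of the stabilizer of an isotropic vector.
-/

set_option autoImplicit false

namespace Cfsg.Agent.Lib.SU3Local.Basic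

open Module Cfsg.Agent.Lib.Classical.HermBasic Cfsg.Agent.Lib.SU3Local.Section

universe u v

variable {F : Type u} [Field F] {V : Type v} [AddCommGroup V] [Module F V]
variable {p : ℕ} [hp : Fact p.Prime] [hc : CharP F p]

include hp hc in
lemma eq_one_of_pow (α : F) {k : ℕ} (h : α ^ p ^ k = 1) : α = 1 := by
  have : (α - 1) ^ p ^ k = 0 := by rw [sub_pow_char_pow, h, one_pow, sub_self]
  exact sub_eq_zero.1 ((pow_eq_zero_iff (pow_ne_zero _ hp.out.ne_zero)).1 this)

omit [hp : Fact p.Prime] [hc : CharP F p] in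
lemma coe_pow (g : V ≃ₗ[F] V) (m : ℕ) (x : V) :
    (g ^ m) x = ((g : V →ₗ[F] V) ^ m : Module.End F V) x := by
  induction m generalizing x with
  | zero => rfl
  | succ m ih =>
    rw [pow_succ, pow_succ, LinearEquiv.mul_apply, Module.End.mul_apply, ih]
    rfl

include hp hc in
lemma exists_fixed (g : V ≃ₗ[F] V) {k : ℕ} (hg : g ^ p ^ k = 1) (W : Submodule F V) (hW : W ≠ ⊥)
    (hgW : ∀ x ∈ W, g x ∈ W) : ∃ x ∈ W, x ≠ 0 ∧ g x = x := by
  classical
  obtain ⟨x₀, hx₀, hx₀0⟩ := Submodule.exists_mem_ne_zero_of_ne_bot hW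
  haveI : Nontrivial V := ⟨⟨x₀, 0, hx₀0⟩⟩
  haveI : CharP (Module.End F V) p := charP_of_injective_algebraMap (algebraMap F _).injective p
  set N : Module.End F V := (g : V →ₗ[F] V) - 1 with hN
  have hNk : N ^ p ^ k = 0 := by
    rw [hN, sub_pow_char_pow_of_commute p k (Commute.one_right _), one_pow, sub_eq_zero]
    ext x
    rw [← coe_pow, hg]
    rfl
  have hex : ∃ j, (N ^ j) x₀ = 0 := ⟨p ^ k, by rw [hNk]; rfl⟩
  have hj : (N ^ (Nat.find hex)) x₀ = 0 := Nat.find_spec hex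
  have hj0 : Nat.find hex ≠ 0 := by
    intro h0
    rw [h0] at hj
    exact hx₀0 hj
  obtain ⟨i, hi⟩ := Nat.exists_eq_succ_of_ne_zero hj0
  have hNW : ∀ y ∈ W, N y ∈ W := by
    intro y hy
    have : N y = g y - y := rfl
    rw [this]
    exact W.sub_mem (hgW y hy) hy
  have hmem : ∀ m, (N ^ m) x₀ ∈ W := by
    intro m
    induction m with
    | zero => exact hx₀
    | succ m ih =>
      rw [pow_succ', Module.End.mul_apply]
      exact hNW _ ih
  refine ⟨(N ^ i) x₀, hmem i, Nat.find_min hex (by omega), ?_⟩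
  have h1 : N ((N ^ i) x₀) = 0 := by
    rw [← Module.End.mul_apply, ← pow_succ', ← Nat.succ_eq_add_one, ← hi, hj]
  have h2 : N ((N ^ i) x₀) = g ((N ^ i) x₀) - (N ^ i) x₀ := rfl
  rw [h2] at h1
  exact sub_eq_zero.1 h1

variable {σ : F →+* F} {h : V → V → F}

omit [hp : Fact p.Prime] [hc : CharP F p] in
lemma exists_frame (S : HForm σ h) [FiniteDimensional F V] (hdim : finrank F V = 3) {e f : V}
    (H : IsHP h e f) :
    ∃ w : V, w ∈ perp2 S e f ∧ h w w ≠ 0 ∧ ∀ y ∈ perp2 S e f, ∃ c : F, y = c • w := by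
  have h1 := finrank_perp2 S H
  have h2 : finrank F (perp2 S e f) = 1 := by omega
  obtain ⟨w, hw0, hw⟩ := finrank_eq_one_iff'.1 h2
  refine ⟨w, w.2, ?_, ?_⟩
  · intro hww
    apply hw0
    apply Subtype.ext
    apply perp2_nd S H w w.2
    intro v hv
    obtain ⟨c, hc'⟩ := hw ⟨v, hv⟩
    have : v = c • (w : V) := (congrArg Subtype.val hc').symm
    rw [this, S.smul_right, hww, mul_zero]
  · intro y hy
    obtain ⟨c, hc'⟩ := hw ⟨y, hy⟩
    exact ⟨c, (congrArg Subtype.val hc').symm⟩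

include hp hc in
lemma eq_one_of_fixes_hp (S : HForm σ h) [FiniteDimensional F V] (hdim : finrank F V = 3) {e f : V}
    (H : IsHP h e f) (g : V ≃ₗ[F] V) (hgh : ∀ x y, h (g x) (g y) = h x y) {k : ℕ} (hg : g ^ p ^ k = 1)
    (he : g e = e) (hf : g f = f) : g = 1 := by
  obtain ⟨w, hw, hww, hspan⟩ := exists_frame S hdim H
  have hinv : ∀ x ∈ perp2 S e f, g x ∈ perp2 S e f := by
    intro x hx
    constructor
    · have := hgh x e
      rw [he] at this
      rw [this]
      exact hx.1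
    · have := hgh x f
      rw [hf] at this
      rw [this]
      exact hx.2
  have hw0 : w ≠ 0 := by
    rintro rfl
    exact hww (S.zero_left _)
  have hne : perp2 S e f ≠ ⊥ := by
    intro hbot
    rw [hbot] at hw
    exact hw0 hw
  obtain ⟨x, hx, hx0, hgx⟩ := exists_fixed g hg _ hne hinv
  obtain ⟨c, rfl⟩ := hspan x hx
  have hc0 : c ≠ 0 := by
    rintro rfl
    exact hx0 (zero_smul _ _)
  have hgw : g w = w := by
    rw [map_smul] at hgx
    exact smul_right_injective V hc0 hgx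
  ext x
  have h1 := decomp (h := h) (e := e) (f := f) x
  obtain ⟨c', hc'⟩ := hspan _ (proj_mem S H x)
  rw [hc'] at h1
  rw [h1]
  simp only [map_add, map_smul, hgw, he, hf]
  rfl

include hp hc in
/-- Two isotropic vectors fixed by a nontrivial `p`-element are proportional. -/
lemma mem_line_of_fixed (S : HForm σ h) (hσ : Invol σ) [FiniteDimensional F V] (hdim : finrank F V = 3)
    (g : V ≃ₗ[F] V) (hgh : ∀ x y, h (g x) (g y) = h x y) {k : ℕ} (hg : g ^ p ^ k = 1) (hg1 : g ≠ 1)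
    {e e' : V} (he : e ≠ 0) (hee : h e e = 0) (hge : g e = e) (he'e' : h e' e' = 0) (hge' : g e' = e') :
    ∃ c : F, e' = c • e := by
  obtain ⟨f, hff, hfe⟩ := S.exists_partner hσ he hee
  have H : IsHP h e f := ⟨hee, hff, hfe⟩
  by_cases hb : h e' e = 0
  · obtain ⟨w, hw, hww, hspan⟩ := exists_frame S hdim H
    have h1 := decomp (h := h) (e := e) (f := f) e'
    obtain ⟨c, hc'⟩ := hspan _ (proj_mem S H e')
    rw [hc', hb, zero_smul, add_zero] at h1
    have hwe : h e w = 0 := S.zero_symm hw.1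
    have hwe' : h w e = 0 := hw.1
    have h2 : h e' e' = c * (σ c * h w w) := by
      rw [h1]
      simp only [S.add_left, S.add_right, S.smul_left, S.smul_right, hwe, hwe', hee]
      ring
    rw [he'e'] at h2
    have hc0 : c = 0 := by
      by_contra hc0
      have : σ c ≠ 0 := by
        intro h0
        exact hc0 ((map_eq_zero σ).1 h0)
      exact (mul_ne_zero hc0 (mul_ne_zero this hww)) h2.symm
    rw [hc0, zero_smul, zero_add] at h1
    exact ⟨_, h1⟩
  · exfalso
    apply hg1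
    have H' : IsHP h e ((h e' e)⁻¹ • e') := by
      refine ⟨hee, ?_, ?_⟩
      · simp only [S.smul_left, S.smul_right, he'e', mul_zero]
      · rw [S.smul_left, inv_mul_cancel₀ hb]
    exact eq_one_of_fixes_hp S hdim H' g hgh hg hge (by rw [map_smul, hge'])

include hp hc in
lemma exists_isotropic_fixed [Finite F] (S : HForm σ h) (hσ : Invol σ) [FiniteDimensional F V]
    (hdim : finrank F V = 3) (g : V ≃ₗ[F] V) (hgh : ∀ x y, h (g x) (g y) = h x y) {k : ℕ}
    (hg : g ^ p ^ k = 1) : ∃ e, e ≠ 0 ∧ h e e = 0 ∧ g e = e := by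
  haveI : Nontrivial V := Module.nontrivial_of_finrank_pos (R := F) (by omega)
  obtain ⟨v, -, hv0, hgv⟩ := exists_fixed g hg ⊤ top_ne_bot (fun _ _ => trivial)
  by_cases hvv : h v v = 0
  · exact ⟨v, hv0, hvv, hgv⟩
  have hker : LinearMap.ker (S.hL v) ≠ ⊥ :=
    LinearMap.ker_ne_bot_of_finrank_lt (by rw [hdim]; simp)
  obtain ⟨x, hx, hx0, hgx⟩ := exists_fixed g hg (LinearMap.ker (S.hL v)) hker (by
    intro y hy
    rw [LinearMap.mem_ker, HForm.hL_apply] at hy ⊢
    have := hgh y v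
    rw [hgv] at this
    rw [this, hy])
  have hxv : h x v = 0 := hx
  by_cases hxx : h x x = 0
  · exact ⟨x, hx0, hxx, hgx⟩
  have hvx : h v x = 0 := S.zero_symm hxv
  obtain ⟨a, ha, hee⟩ := S.exists_isotropic_of_orth hσ hvv hxx hvx
  refine ⟨a • v + x, ?_, hee, by simp [hgv, hgx]⟩
  intro h0
  have h1 := congrArg (fun y => h y v) h0
  simp only [S.add_left, S.smul_left, hxv, S.zero_left, add_zero] at h1
  exact (mul_ne_zero ha hvv) h1

include hp hc in
lemma eq_of_smul_of_pow {e : V} (he : e ≠ 0) (g : V ≃ₗ[F] V) {k : ℕ} (hg : g ^ p ^ k = 1) {c : F}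
    (hc' : g e = c • e) : g e = e := by
  have h1 : ∀ m : ℕ, (g ^ m) e = c ^ m • e := by
    intro m
    induction m with
    | zero => simp
    | succ m ih => rw [pow_succ, LinearEquiv.mul_apply, hc', map_smul, ih, smul_smul, pow_succ, mul_comm]
  have h2 := h1 (p ^ k)
  rw [hg] at h2
  have h3 : (c ^ p ^ k - 1) • e = 0 := by
    rw [sub_smul, ← h2, one_smul]
    exact sub_self _
  have h4 : c ^ p ^ k = 1 := by
    rcases smul_eq_zero.1 h3 with h5 | h5
    · exact sub_eq_zero.1 h5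
    · exact absurd h5 he
  rw [hc', eq_one_of_pow (p := p) c h4, one_smul]

/-- The unipotent radical of the stabilizer of `e`. -/
def unip (h : V → V → F) (e : V) : Subgroup (V ≃ₗ[F] V) where
  carrier := {g | (∀ x y, h (g x) (g y) = h x y) ∧ g e = e ∧ ∀ x, h x e = 0 → ∃ c : F, g x = x + c • e}
  mul_mem' := by
    rintro a b ⟨ha1, ha2, ha3⟩ ⟨hb1, hb2, hb3⟩
    refine ⟨?_, ?_, ?_⟩
    · intro x y
      change h (a (b x)) (a (b y)) = h x y
      rw [ha1, hb1]
    · change a (b e) = e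
      rw [hb2, ha2]
    · intro x hx
      obtain ⟨c, hc'⟩ := hb3 x hx
      obtain ⟨d, hd⟩ := ha3 x hx
      refine ⟨c + d, ?_⟩
      change a (b x) = _
      rw [hc', map_add, map_smul, ha2, hd, add_smul]
      abel
  one_mem' := by
    refine ⟨fun _ _ => rfl, rfl, fun x _ => ⟨0, by simp⟩⟩
  inv_mem' := by
    rintro a ⟨ha1, ha2, ha3⟩
    have hinv : ∀ x, a (a⁻¹ x) = x := fun x => by
      change (a * a⁻¹) x = x
      rw [mul_inv_cancel]
      rfl
    refine ⟨?_, ?_, ?_⟩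
    · intro x y
      have := ha1 (a⁻¹ x) (a⁻¹ y)
      rw [hinv, hinv] at this
      exact this.symm
    · apply a.injective
      rw [hinv, ha2]
    · intro x hx
      have h1 := ha1 (a⁻¹ x) e
      rw [hinv, ha2, hx] at h1
      obtain ⟨c, hc'⟩ := ha3 _ h1.symm
      rw [hinv] at hc'
      refine ⟨-c, ?_⟩
      rw [neg_smul, ← sub_eq_add_neg, eq_sub_iff_add_eq]
      exact hc'.symm

omit [hp : Fact p.Prime] [hc : CharP F p] in
/-- A `p`-element of the unipotent radical. -/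
lemma cube_eq_zero (S : HForm σ h) {e : V} {g : V ≃ₗ[F] V} (hg : g ∈ unip h e) :
    ((g : V →ₗ[F] V) - 1 : Module.End F V) ^ 3 = 0 := by
  obtain ⟨h1, h2, h3⟩ := hg
  ext x
  have hNapp : ∀ y, ((g : V →ₗ[F] V) - 1 : Module.End F V) y = g y - y := fun _ => rfl
  have hx : h (g x - x) e = 0 := by
    rw [S.sub_left]
    have := h1 x e
    rw [h2] at this
    rw [this, sub_self]
  obtain ⟨c, hc'⟩ := h3 _ hx
  have h4 : g (g x - x) - (g x - x) = c • e := by
    rw [hc']
    abel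
  rw [pow_succ, pow_succ, pow_one, Module.End.mul_apply, Module.End.mul_apply, hNapp x, hNapp (g x - x), h4,
    hNapp, map_smul, h2, sub_self]
  rfl

include hp hc in
lemma isPGroup_unip (hp2 : p ≠ 2) (S : HForm σ h) {e : V} (he : e ≠ 0) : IsPGroup p (unip h e) := by
  haveI : Nontrivial V := ⟨⟨e, 0, he⟩⟩
  haveI : CharP (Module.End F V) p := charP_of_injective_algebraMap (algebraMap F _).injective p
  rintro ⟨g, hg⟩
  refine ⟨1, Subtype.ext ?_⟩
  have h1 := cube_eq_zero S hg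
  have hp3 : 3 ≤ p := by
    have := hp.out.two_le
    omega
  have h2 : ((g : V →ₗ[F] V) - 1 : Module.End F V) ^ p = 0 := pow_eq_zero_of_le hp3 h1
  rw [sub_pow_char_of_commute p (Commute.one_right _), one_pow, sub_eq_zero] at h2
  change g ^ p ^ 1 = 1
  ext x
  rw [pow_one, coe_pow, h2]
  rfl

include hp hc in
lemma mem_unip (S : HForm σ h) (hσ : Invol σ) [FiniteDimensional F V] (hdim : finrank F V = 3) {e : V}
    (he : e ≠ 0) (hee : h e e = 0) (g : V ≃ₗ[F] V) (hgh : ∀ x y, h (g x) (g y) = h x y) {k : ℕ}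
    (hg : g ^ p ^ k = 1) (hge : g e = e) : g ∈ unip h e := by
  refine ⟨hgh, hge, ?_⟩
  obtain ⟨f, hff, hfe⟩ := S.exists_partner hσ he hee
  have H : IsHP h e f := ⟨hee, hff, hfe⟩
  obtain ⟨w, hw, hww, hspan⟩ := exists_frame S hdim H
  have hwe' : h w e = 0 := hw.1
  have hwe : h e w = 0 := S.zero_symm hw.1
  have hdec : ∀ x, h x e = 0 → ∃ c d : F, x = c • w + d • e := by
    intro x hx
    have h1 := decomp (h := h) (e := e) (f := f) x
    obtain ⟨c, hc'⟩ := hspan _ (proj_mem S H x)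
    rw [hc', hx, zero_smul, add_zero] at h1
    exact ⟨c, _, h1⟩
  have hgwe : h (g w) e = 0 := by
    have := hgh w e
    rw [hge] at this
    rw [this, hwe']
  obtain ⟨α, β, hαβ⟩ := hdec _ hgwe
  have hpow : ∀ m : ℕ, ∃ b : F, (g ^ m) w = α ^ m • w + b • e := by
    intro m
    induction m with
    | zero => exact ⟨0, by simp⟩
    | succ m ih =>
      obtain ⟨b, hb⟩ := ih
      refine ⟨α ^ m * β + b, ?_⟩
      rw [pow_succ', LinearEquiv.mul_apply, hb, map_add, map_smul, map_smul, hαβ, hge, smul_add, smul_smul,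
        smul_smul, add_smul, pow_succ, add_assoc]
  obtain ⟨b, hb⟩ := hpow (p ^ k)
  rw [hg] at hb
  have hα : α = 1 := by
    apply eq_one_of_pow (p := p) α (k := k)
    have := congrArg (fun y => h y w) hb
    simp only [S.add_left, S.smul_left, hwe, mul_zero, add_zero] at this
    have h5 : (1 : V ≃ₗ[F] V) w = w := rfl
    rw [h5] at this
    field_simp at this
    exact this.symm
  rw [hα, one_smul] at hαβ
  intro x hx
  obtain ⟨c, d, rfl⟩ := hdec x hx
  refine ⟨c * β, ?_⟩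
  rw [map_add, map_smul, map_smul, hαβ, hge, smul_add, smul_smul]
  abel

/-- **The `p`-local lemma for `SU₃`.** -/
theorem hloc_suGroup [Finite F] (hp2 : p ≠ 2) (S : HForm σ h) (hσ : Invol σ) [FiniteDimensional F V]
    (hdim : finrank F V = 3) (R : Subgroup (suGroup h)) (hR : R ≠ ⊥) (hRp : IsPGroup p R) :
    ∃ T : Subgroup (suGroup h), IsPGroup p T ∧
      ∀ g ∈ Subgroup.normalizer (R : Set (suGroup h)), IsPElt p g → g ∈ T := by
  classical
  haveI : Finite V := Module.finite_of_finite F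
  haveI : Finite (V ≃ₗ[F] V) := Finite.of_injective (fun g : V ≃ₗ[F] V => (g : V → V)) DFunLike.coe_injective
  haveI : Nontrivial R := (Subgroup.nontrivial_iff_ne_bot R).2 hR
  haveI := hRp.center_nontrivial
  obtain ⟨z, hz⟩ := exists_ne (1 : Subgroup.center R)
  have hgh : ∀ g : suGroup h, ∀ x y, h (g.1 x) (g.1 y) = h x y := fun g => (mem_suGroup.1 g.2).1
  have hpelt : ∀ r : R, ∃ k, (r.1.1) ^ p ^ k = 1 := by
    intro r
    obtain ⟨k, hk⟩ := hRp r
    exact ⟨k, by simpa using congrArg (fun x : R => x.1.1) hk⟩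
  obtain ⟨ζ, hζdef⟩ : ∃ ζ : R, ζ = z.1 := ⟨_, rfl⟩
  obtain ⟨kz, hkz⟩ := hpelt ζ
  have hζ1 : ζ.1.1 ≠ 1 := fun h0 => hz (Subtype.ext (by
    rw [← hζdef]
    exact Subtype.ext (Subtype.ext h0)))
  obtain ⟨e, he0, hee, hζe⟩ := exists_isotropic_fixed S hσ hdim ζ.1.1 (hgh _) hkz
  refine ⟨(unip h e).comap (suGroup h).subtype,
    (isPGroup_unip hp2 S he0).comap_of_injective _ (suGroup h).subtype_injective, ?_⟩
  have hfix : ∀ r : R, r.1.1 e = e := by
    intro r
    obtain ⟨k, hk⟩ := hpelt r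
    have hcomm : r * ζ = ζ * r := by
      rw [hζdef]
      exact ((Subgroup.mem_center_iff.1 z.2) r)
    have h1 : ζ.1.1 (r.1.1 e) = r.1.1 e := by
      have h2 : (ζ * r).1.1 e = (r * ζ).1.1 e := by rw [hcomm]
      have h3 : (ζ * r).1.1 e = ζ.1.1 (r.1.1 e) := rfl
      have h4 : (r * ζ).1.1 e = r.1.1 (ζ.1.1 e) := rfl
      rw [h3, h4, hζe] at h2
      exact h2
    obtain ⟨c, hc'⟩ := mem_line_of_fixed S hσ hdim ζ.1.1 (hgh _) hkz hζ1 he0 hee hζe
      (e' := r.1.1 e) (by rw [hgh, hee]) h1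
    exact eq_of_smul_of_pow he0 r.1.1 hk hc'
  intro g hg hgp
  obtain ⟨k, hk⟩ := hgp
  have hk' : g.1 ^ p ^ k = 1 := by simpa using congrArg Subtype.val hk
  have hmem : g * ζ.1 * g⁻¹ ∈ R := (Subgroup.mem_normalizer_iff.1 hg _).1 ζ.2
  obtain ⟨k', hk''⟩ := hpelt ⟨g * ζ.1 * g⁻¹, hmem⟩
  have hz'1 : (g * ζ.1 * g⁻¹).1 ≠ 1 := by
    intro h0
    apply hζ1
    have h1 : g * ζ.1 * g⁻¹ = 1 := Subtype.ext h0
    have h2 : ζ.1 = 1 := by
      have h3 : ζ.1 = g⁻¹ * (g * ζ.1 * g⁻¹) * g := by group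
      rw [h3, h1]
      group
    rw [h2]
    rfl
  have h1 : (g * ζ.1 * g⁻¹).1 (g.1 e) = g.1 e := by
    have h2 : (g * ζ.1 * g⁻¹).1 (g.1 e) = g.1 (ζ.1.1 ((g⁻¹ * g).1 e)) := rfl
    rw [h2, inv_mul_cancel]
    change g.1 (ζ.1.1 e) = g.1 e
    rw [hζe]
  obtain ⟨c, hc'⟩ := mem_line_of_fixed S hσ hdim (g * ζ.1 * g⁻¹).1 (hgh _) hk'' hz'1 he0 hee
    (hfix ⟨g * ζ.1 * g⁻¹, hmem⟩) (e' := g.1 e) (by rw [hgh, hee]) h1
  have hge := eq_of_smul_of_pow he0 g.1 hk' hc'
  exact mem_unip S hσ hdim he0 hee g.1 (hgh g) hk' hge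

end Cfsg.Agent.Lib.SU3Local.Basic
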