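import Cfsg.Agent.Lib.ZJ.QdSection

/-!
# Sections and `p`-local subgroups

If in `G` the `p`-elements of the normalizer of any nontrivial `p`-subgroup lie in a common `p`-subgroup,
then a group `X` with a nontrivial normal `p`-subgroup and two `p`-elements whose product is not a `p`-element
is not involved in `G`.  This is applied to `X = Qd(p)`.
-/

set_option autoImplicit false

open scoped MatrixGroups
open Matrix

namespace Cfsg.Agent.Lib.SU3Local.Section

open Cfsg Cfsg.Agent.Lib.ZJ.QdSection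

universe u v

/-- `g` is a `p`-element. -/
def IsPElt {G : Type*} [Group G] (p : ℕ) (g : G) : Prop := ∃ k : ℕ, g ^ p ^ k = 1

lemma IsPElt.of_mem {G : Type*} [Group G] {p : ℕ} {T : Subgroup G} (hT : IsPGroup p T) {g : G} (hg : g ∈ T) :
    IsPElt p g := by
  obtain ⟨k, hk⟩ := hT ⟨g, hg⟩
  exact ⟨k, by simpa using congrArg Subtype.val hk⟩

lemma IsPElt.map {G H : Type*} [Group G] [Group H] {p : ℕ} (f : G →* H) {g : G} (hg : IsPElt p g) :
    IsPElt p (f g) := by
  obtain ⟨k, hk⟩ := hg
  exact ⟨k, by rw [← map_pow, hk, map_one]⟩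

lemma isPGroup_zpowers {G : Type*} [Group G] {p : ℕ} {g : G} (hg : IsPElt p g) :
    IsPGroup p (Subgroup.zpowers g) := by
  obtain ⟨k, hk⟩ := hg
  intro x
  obtain ⟨i, hi⟩ := Subgroup.mem_zpowers_iff.1 x.2
  refine ⟨k, Subtype.ext ?_⟩
  change (x : G) ^ p ^ k = 1
  rw [← hi, ← zpow_natCast, ← _root_.zpow_mul, mul_comm, _root_.zpow_mul, zpow_natCast, hk, _root_.one_zpow]

/-- A `p`-element lifts along a surjective homomorphism to a `p`-element. -/
lemma exists_lift {A B : Type*} [Group A] [Finite A] [Group B] [Finite B] {p : ℕ} [Fact p.Prime]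
    (f : A →* B) (hf : Function.Surjective f) {y : B} (hy : IsPElt p y) :
    ∃ z : A, IsPElt p z ∧ f z = y := by
  obtain ⟨P, hP⟩ := IsPGroup.exists_le_sylow (isPGroup_zpowers hy)
  obtain ⟨P', rfl⟩ := Sylow.mapSurjective_surjective hf p P
  have hmem : y ∈ ((Sylow.mapSurjective hf P' : Sylow p B) : Subgroup B) :=
    hP (Subgroup.mem_zpowers y)
  rw [Sylow.coe_mapSurjective] at hmem
  obtain ⟨z, hz, rfl⟩ := Subgroup.mem_map.1 hmem
  exact ⟨z, IsPElt.of_mem P'.isPGroup' hz, rfl⟩

/-- **The section lemma.** -/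
theorem not_involves_of_local {G : Type u} {X : Type v} [Group G] [Finite G] [Group X] [Finite X] {p : ℕ}
    [hp : Fact p.Prime]
    (hloc : ∀ R : Subgroup G, R ≠ ⊥ → IsPGroup p R → ∃ T : Subgroup G, IsPGroup p T ∧
      ∀ g ∈ Subgroup.normalizer (R : Set G), IsPElt p g → g ∈ T)
    (V : Subgroup X) [hVn : V.Normal] (hVp : IsPGroup p V) (hV1 : V ≠ ⊥) (a b : X) (ha : IsPElt p a)
    (hb : IsPElt p b) (hab : ¬ IsPElt p (a * b)) : ¬ Involves X G := by
  classical
  rw [involves_iff]
  rintro ⟨K, f, hf⟩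
  set W : Subgroup K := V.comap f with hW
  haveI hWn : W.Normal := hVn.comap f
  obtain ⟨R⟩ : Nonempty (Sylow p W) := inferInstance
  -- `R ≠ 1`
  have hR1 : (R : Subgroup W) ≠ ⊥ := by
    intro hbot
    obtain ⟨v, hv⟩ := Subgroup.ne_bot_iff_exists_ne_one.1 hV1
    obtain ⟨w, hw⟩ := hf (v : X)
    have hwW : w ∈ W := by
      rw [hW, Subgroup.mem_comap, hw]
      exact v.2
    obtain ⟨k, hk⟩ := hVp v
    have hvk : (v : X) ^ p ^ k = 1 := by simpa using congrArg Subtype.val hk
    -- a `p`-element of `W` lifting `v`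
    let fW : W →* V := (f.comp W.subtype).codRestrict V (fun x => x.2)
    have hfW : Function.Surjective fW := by
      intro y
      obtain ⟨w', hw'⟩ := hf (y : X)
      have hw'W : w' ∈ W := by
        rw [hW, Subgroup.mem_comap, hw']
        exact y.2
      exact ⟨⟨w', hw'W⟩, Subtype.ext hw'⟩
    obtain ⟨z, hz, hzv⟩ := exists_lift fW hfW (y := v) ⟨k, hk⟩
    have hzR : z ∈ (R : Subgroup W) := by
      obtain ⟨P, hP⟩ := IsPGroup.exists_le_sylow (isPGroup_zpowers hz)
      obtain ⟨g, rfl⟩ := MulAction.exists_smul_eq W R P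
      have h1 : z ∈ ((g • R : Sylow p W) : Subgroup W) := hP (Subgroup.mem_zpowers z)
      have hcard : Nat.card ((g • R : Sylow p W) : Subgroup W) = Nat.card (R : Subgroup W) :=
        Sylow.card_eq_multiplicity (g • R) |>.trans (Sylow.card_eq_multiplicity R).symm
      have hbot' : Nat.card (R : Subgroup W) = 1 := by rw [hbot]; simp
      rw [hbot'] at hcard
      have : ((g • R : Sylow p W) : Subgroup W) = ⊥ := Subgroup.eq_bot_of_card_eq _ hcard
      rw [this] at h1
      rw [h1]
      exact one_mem _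
    rw [hbot] at hzR
    have hz1 : z = 1 := hzR
    rw [hz1, map_one] at hzv
    exact hv hzv.symm
  set R₁ : Subgroup K := (R : Subgroup W).map W.subtype with hR₁
  have hFr : (Subgroup.normalizer (R₁ : Set K)) ⊔ W = ⊤ := Sylow.normalizer_sup_eq_top R
  set R₂ : Subgroup G := R₁.map K.subtype with hR₂
  have hR₂p : IsPGroup p R₂ := (R.isPGroup'.map _).map _
  have hR₂1 : R₂ ≠ ⊥ := by
    intro h
    apply hR1
    have h1 : R₁ = ⊥ := by
      rw [hR₂] at h
      exact (Subgroup.map_eq_bot_iff_of_injective _ K.subtype_injective).1 h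
    rw [hR₁] at h1
    exact (Subgroup.map_eq_bot_iff_of_injective _ W.subtype_injective).1 h1
  obtain ⟨T, hTp, hT⟩ := hloc R₂ hR₂1 hR₂p
  -- lifting to the normalizer
  set N : Subgroup K := Subgroup.normalizer (R₁ : Set K) with hN
  let g₁ : N →* X ⧸ V := (QuotientGroup.mk' V).comp (f.comp N.subtype)
  have hg₁ : Function.Surjective g₁ := by
    intro x
    obtain ⟨x', rfl⟩ := QuotientGroup.mk'_surjective V x
    obtain ⟨k, rfl⟩ := hf x'
    have hk : k ∈ N ⊔ W := by
      rw [hFr]
      exact Subgroup.mem_top k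
    obtain ⟨n, hn, w, hw, rfl⟩ := Subgroup.mem_sup_of_normal_right.1 hk
    refine ⟨⟨n, hn⟩, ?_⟩
    change (QuotientGroup.mk' V) (f n) = (QuotientGroup.mk' V) (f (n * w))
    rw [map_mul, map_mul]
    have : (QuotientGroup.mk' V) (f w) = 1 := (QuotientGroup.eq_one_iff _).2 hw
    rw [this, mul_one]
  have hkey : ∀ x : X, IsPElt p x → ∃ n : N, ((n : K) : G) ∈ T ∧ (f n)⁻¹ * x ∈ V := by
    intro x hx
    obtain ⟨z, hz, hzx⟩ := exists_lift g₁ hg₁ (hx.map (QuotientGroup.mk' V))
    refine ⟨z, ?_, ?_⟩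
    · apply hT
      · -- `z` normalizes `R₂`
        have hzN : (z : K) ∈ Subgroup.normalizer (R₁ : Set K) := z.2
        rw [Subgroup.mem_normalizer_iff] at hzN ⊢
        intro y
        constructor
        · rintro hy
          obtain ⟨y', hy', rfl⟩ := Subgroup.mem_map.1 hy
          refine Subgroup.mem_map.2 ⟨_, (hzN y').1 hy', ?_⟩
          simp
        · rintro hy
          have hy2 : y ∈ K := by
            have := Subgroup.mem_map.1 hy
            obtain ⟨y', _, hy''⟩ := this
            have hc : ((z : K) : G) * y * ((z : K) : G)⁻¹ ∈ K := by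
              rw [← hy'']
              exact y'.2
            have : y = ((z : K) : G)⁻¹ * (((z : K) : G) * y * ((z : K) : G)⁻¹) * ((z : K) : G) := by group
            rw [this]
            exact mul_mem (mul_mem (inv_mem (z : K).2) hc) (z : K).2
          obtain ⟨y', hy', hy''⟩ := Subgroup.mem_map.1 hy
          have hy3 : (⟨y, hy2⟩ : K) ∈ (R₁ : Set K) := by
            rw [SetLike.mem_coe, hzN]
            have : (z : K) * ⟨y, hy2⟩ * (z : K)⁻¹ = y' := Subtype.ext (by simpa using hy''.symm)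
            rw [this]
            exact hy'
          exact Subgroup.mem_map.2 ⟨⟨y, hy2⟩, hy3, rfl⟩
      · exact (hz.map N.subtype).map K.subtype
    · have : (QuotientGroup.mk' V) (f z) = (QuotientGroup.mk' V) x := hzx
      exact (QuotientGroup.eq).1 this
  obtain ⟨na, hna, hna'⟩ := hkey a ha
  obtain ⟨nb, hnb, hnb'⟩ := hkey b hb
  -- the `p`-subgroup
  set TK : Subgroup K := T.comap K.subtype with hTK
  have hTKp : IsPGroup p TK := hTp.comap_of_injective _ K.subtype_injective
  set TX : Subgroup X := TK.map f with hTX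
  have hTXp : IsPGroup p TX := hTKp.map f
  have hsup : IsPGroup p ↥(TX ⊔ V) := hTXp.to_sup_of_normal_right hVp
  have hmem : ∀ (n : N) (x : X), ((n : K) : G) ∈ T → (f n)⁻¹ * x ∈ V → x ∈ TX ⊔ V := by
    intro n x h1 h2
    have h3 : f n ∈ TX := Subgroup.mem_map.2 ⟨n, h1, rfl⟩
    have : x = f n * ((f n)⁻¹ * x) := by group
    rw [this]
    exact mul_mem (Subgroup.mem_sup_left h3) (Subgroup.mem_sup_right h2)
  apply hab
  exact IsPElt.of_mem hsup (mul_mem (hmem na a hna hna') (hmem nb b hnb hnb'))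

section qd

variable {p : ℕ} [hp : Fact p.Prime]

local notation "Zp" => ZMod p

lemma transHom_range_normal : (transHom (p := p)).range.Normal := by
  constructor
  rintro n ⟨v, rfl⟩ g
  obtain ⟨u, A, rfl⟩ := exists_decomp g
  refine ⟨Multiplicative.ofAdd u * slAct A v * (Multiplicative.ofAdd u)⁻¹, ?_⟩
  rw [map_mul, map_mul, map_inv, trans_conj]
  group

lemma isPGroup_transHom_range : IsPGroup p (transHom (p := p)).range := by
  rintro ⟨_, v, rfl⟩
  refine ⟨1, Subtype.ext ?_⟩
  change transHom v ^ p ^ 1 = 1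
  rw [pow_one, ← map_pow]
  have : v ^ p = 1 := by
    apply Multiplicative.toAdd.injective
    ext i
    simp
  rw [this, map_one]

lemma transHom_range_ne_bot : (transHom (p := p)).range ≠ ⊥ := by
  intro h
  have h1 : transHom (p := p) (Multiplicative.ofAdd ![1, 0]) = 1 := by
    have : transHom (p := p) (Multiplicative.ofAdd ![1, 0]) ∈ (transHom (p := p)).range := ⟨_, rfl⟩
    rw [h] at this
    exact this
  have h2 := congrArg (fun M : qd p => mat M 0 2) h1
  simp only [mat_transHom, mat_one] at h2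
  simp at h2

lemma blk_injective : Function.Injective (blk (p := p)) := by
  rw [injective_iff_map_eq_one]
  intro A hA
  have h1 := congrArg mat hA
  rw [mat_blkHom, mat_one] at h1
  apply Subtype.ext
  ext i j
  have h2 := congrFun (congrFun h1 (Fin.castLE (by omega) i)) (Fin.castLE (by omega) j)
  fin_cases i <;> fin_cases j <;> simpa using h2

lemma pelt_of_sq (A : SL(2, Zp)) (hA : ((A : Matrix (Fin 2) (Fin 2) Zp) - 1) ^ 2 = 0) :
    IsPElt p (blk A) := by
  refine ⟨1, ?_⟩
  have h1 : ((A : Matrix (Fin 2) (Fin 2) Zp) - 1) ^ p = 0 := pow_eq_zero_of_le hp.out.two_le hA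
  rw [sub_pow_char_of_commute p (Commute.one_right _), one_pow, sub_eq_zero] at h1
  rw [pow_one, ← map_pow]
  have h2 : A ^ p = 1 := by
    apply Subtype.ext
    rw [Matrix.SpecialLinearGroup.coe_pow, h1]
    rfl
  rw [h2, map_one]

/-- `Qd(p)` is not involved in a group whose `p`-local subgroups have a unique "Sylow subgroup" in the
sense that the `p`-elements of the normalizer of any nontrivial `p`-subgroup lie in a common `p`-subgroup. -/
theorem qd_not_involves_of_local {G : Type u} [Group G] [Finite G]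
    (hloc : ∀ R : Subgroup G, R ≠ ⊥ → IsPGroup p R → ∃ T : Subgroup G, IsPGroup p T ∧
      ∀ g ∈ Subgroup.normalizer (R : Set G), IsPElt p g → g ∈ T) : ¬ Involves (qd p) G := by
  haveI := transHom_range_normal (p := p)
  let A : SL(2, Zp) := ⟨!![1, 1; 0, 1], by simp [Matrix.det_fin_two]⟩
  let B : SL(2, Zp) := ⟨!![1, 0; 1, 1], by simp [Matrix.det_fin_two]⟩
  have hA : (A : Matrix (Fin 2) (Fin 2) Zp) = !![1, 1; 0, 1] := rfl
  have hB : (B : Matrix (Fin 2) (Fin 2) Zp) = !![1, 0; 1, 1] := rfl
  refine not_involves_of_local hloc (transHom (p := p)).range isPGroup_transHom_range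
    transHom_range_ne_bot (blk A) (blk B) (pelt_of_sq A ?_) (pelt_of_sq B ?_) ?_
  · rw [hA]
    ext i j
    fin_cases i <;> fin_cases j <;> simp [pow_two, Matrix.mul_apply, Fin.sum_univ_two, Matrix.one_apply]
  · rw [hB]
    ext i j
    fin_cases i <;> fin_cases j <;> simp [pow_two, Matrix.mul_apply, Fin.sum_univ_two, Matrix.one_apply]
  · rintro ⟨k, hk⟩
    rw [← map_mul, ← map_pow] at hk
    have h1 : (A * B) ^ p ^ k = 1 := blk_injective (by rw [hk, map_one])
    have h2 : ((A * B : SL(2, Zp)) : Matrix (Fin 2) (Fin 2) Zp) ^ p ^ k = 1 := by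
      rw [← Matrix.SpecialLinearGroup.coe_pow, h1]
      rfl
    have h3 : (((A * B : SL(2, Zp)) : Matrix (Fin 2) (Fin 2) Zp) - 1) ^ p ^ k = 0 := by
      rw [sub_pow_char_pow_of_commute p k (Commute.one_right _), one_pow, h2, sub_self]
    have h4 := congrArg Matrix.det h3
    rw [Matrix.det_pow, Matrix.det_zero] at h4
    have h5 : Matrix.det (((A * B : SL(2, Zp)) : Matrix (Fin 2) (Fin 2) Zp) - 1) = -1 := by
      rw [Matrix.SpecialLinearGroup.coe_mul, hA, hB, Matrix.det_fin_two]
      simp [Matrix.mul_apply, Fin.sum_univ_two, Matrix.one_apply]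
    rw [h5] at h4
    exact (pow_ne_zero _ (neg_ne_zero.2 one_ne_zero)) h4

end qd

end Cfsg.Agent.Lib.SU3Local.Section
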